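import Cfsg.Agent.Lib.Helper70.S3701.Defs

/-!
# S3701, package LOCAL (helper48)

From the general kernel statement, the linear character `ν` of `C = C_H(a)` and the TI property,
the normal subgroup `L ∋ w`, `L ∌ a`.
-/

set_option autoImplicit false

namespace Cfsg.Agent.Lib.Helper48.S3701

open Cfsg.Agent.Lib.Helper70.S3701

universe u

/-- Elements of `T` have cube `1`. -/
theorem data_T_cube {G : Type u} [Group G] {H T : Subgroup G} {a b c w w' : G}
    (D : Data H T a b c w w') {t : G} (ht : t ∈ T) : t ^ 3 = 1 := by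
  obtain ⟨i, j, k, rfl⟩ := D.T_eq t ht
  have hab : Commute a b := D.ab
  have hac : Commute a c := D.ac
  have hbc : Commute b c := D.bc
  have h1 : Commute (a ^ i * b ^ j) (c ^ k) := (hac.pow_pow i k).mul_left (hbc.pow_pow j k)
  rw [h1.mul_pow, (hab.pow_pow i j).mul_pow, ← pow_mul, ← pow_mul, ← pow_mul, mul_comm i 3,
    mul_comm j 3, mul_comm k 3, pow_mul, pow_mul, pow_mul, D.a3, D.b3, D.c3]
  simp

/-- The four cosets of `T` in `H`. -/
theorem data_H_cases {G : Type u} [Group G] {H T : Subgroup G} {a b c w w' : G}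
    (D : Data H T a b c w w') {h : G} (hh : h ∈ H) :
    ∃ t ∈ T, h = t ∨ h = t * w ∨ h = t * w' ∨ h = t * (w * w') := by
  obtain ⟨t, ht, e, f, rfl⟩ := D.H_eq h hh
  refine ⟨t, ht, ?_⟩
  have hw2 : w ^ 2 = 1 := by rw [pow_two]; exact D.w2
  have hw'2 : w' ^ 2 = 1 := by rw [pow_two]; exact D.w'2
  rw [pow_eq_pow_mod e hw2, pow_eq_pow_mod f hw'2]
  rcases Nat.mod_two_eq_zero_or_one e with he | he <;>
    rcases Nat.mod_two_eq_zero_or_one f with hf | hf <;> simp [he, hf, mul_assoc]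

/-- Elements of `H` normalize `T`. -/
theorem data_conj_mem {G : Type u} [Group G] {H T : Subgroup G} {a b c w w' : G}
    (D : Data H T a b c w w') {v t : G} (hv : v ∈ H) (ht : t ∈ T) : v * t * v⁻¹ ∈ T := by
  have h1 : v ∈ Subgroup.normalizer (T : Set G) := by rw [D.hN]; exact hv
  exact (Subgroup.mem_normalizer_iff.mp h1 t).mp ht

/-- Squares of elements of `H` lie in `T`. -/
theorem data_sq_mem {G : Type u} [Group G] {H T : Subgroup G} {a b c w w' : G}
    (D : Data H T a b c w w') {h : G} (hh : h ∈ H) : h * h ∈ T := by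
  have hww : (w * w') * (w * w') = 1 := by
    calc (w * w') * (w * w') = w * (w' * w) * w' := by group
      _ = w * (w * w') * w' := by rw [D.ww']
      _ = (w * w) * (w' * w') := by group
      _ = 1 := by rw [D.w2, D.w'2, one_mul]
  have key : ∀ t ∈ T, ∀ v ∈ H, v * v = 1 → (t * v) * (t * v) ∈ T := by
    intro t ht v hv hv2
    have e : (t * v) * (t * v) = t * (v * t * v⁻¹) * (v * v) := by group
    rw [e, hv2, mul_one]
    exact T.mul_mem ht (data_conj_mem D hv ht)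
  obtain ⟨t, ht, rfl | rfl | rfl | rfl⟩ := data_H_cases D hh
  · exact T.mul_mem ht ht
  · exact key t ht w D.hwH D.w2
  · exact key t ht w' D.hw'H D.w'2
  · exact key t ht (w * w') (H.mul_mem D.hwH D.hw'H) hww

/-- An involution `t * v` (`t` of order dividing `3`, `v` an involution) is a conjugate of `v`. -/
theorem invol_conj_aux {G : Type u} [Group G] {t v : G} (ht3 : t ^ 3 = 1) (hv : v * v = 1)
    (hs : (t * v) * (t * v) = 1) : t * v = t⁻¹ * v * (t⁻¹)⁻¹ := by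
  have hvi : v⁻¹ = v := inv_eq_of_mul_eq_one_right hv
  have h1 : v * t = t⁻¹ * v := by
    calc v * t = t⁻¹ * ((t * v) * (t * v)) * v⁻¹ := by group
      _ = t⁻¹ * v⁻¹ := by rw [hs, mul_one]
      _ = t⁻¹ * v := by rw [hvi]
  have h2 : t⁻¹ * t⁻¹ = t := by
    calc t⁻¹ * t⁻¹ = t⁻¹ * t⁻¹ * t ^ 3 := by rw [ht3, mul_one]
      _ = t := by group
  calc t * v = t⁻¹ * t⁻¹ * v := by rw [h2]
    _ = t⁻¹ * (t⁻¹ * v) := by group
    _ = t⁻¹ * (v * t) := by rw [h1]
    _ = t⁻¹ * v * (t⁻¹)⁻¹ := by group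

theorem pkgLocal : PkgLocal.{u} := by
  intro hK hNu hTI G _ _ H T a b c w w' D hnf1 hnf2
  obtain ⟨C, ν, hnorm, hCH, hTC, hwC, hcard, hinv, hν3, ha, hνa⟩ := hNu H T a b c w w' D
  have hww : (w * w') * (w * w') = 1 := by
    calc (w * w') * (w * w') = w * (w' * w) * w' := by group
      _ = w * (w * w') * w' := by rw [D.ww']
      _ = (w * w) * (w' * w') := by group
      _ = 1 := by rw [D.w2, D.w'2, one_mul]
  have hTI' : ∀ y : C, ν y ≠ 1 → ∀ g : G, g * y * g⁻¹ ∈ C → g ∈ H := by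
    intro y hy g hg
    have h4 : (y : G) ^ 4 ∈ T := by
      have h1 := data_sq_mem D (hCH y.2)
      have e : (y : G) ^ 4 = ((y : G) * y) * ((y : G) * y) := by
        rw [show (4 : ℕ) = 2 + 2 from rfl, pow_add, pow_two]
      rw [e]
      exact T.mul_mem h1 h1
    have h41 : (y : G) ^ 4 ≠ 1 := by
      intro h1
      have h2 : y ^ 4 = 1 := Subtype.ext (by rw [Subgroup.coe_pow]; exact h1)
      have h3 : ν y ^ 4 = 1 := by rw [← map_pow, h2, map_one]
      apply hy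
      calc ν y = ν y ^ 4 * (ν y ^ 3)⁻¹ := by group
        _ = 1 := by rw [h3, hν3 y]; simp
    have h5 : g * (y : G) ^ 4 * g⁻¹ ∈ H := by
      rw [← conj_pow]
      exact H.pow_mem (hCH hg) 4
    exact hTI H T a b c w w' D g _ h4 h41 h5
  have hconj : ∀ g : G, g * w * g⁻¹ ∈ H → g * w * g⁻¹ ∈ C := by
    intro g hg
    have hs2 : (g * w * g⁻¹) * (g * w * g⁻¹) = 1 := by
      calc (g * w * g⁻¹) * (g * w * g⁻¹) = g * (w * w) * g⁻¹ := by group
        _ = 1 := by rw [D.w2]; group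
    obtain ⟨t, ht, h | h | h | h⟩ := data_H_cases D hg
    · rw [h]; exact hTC ht
    · rw [h]; exact C.mul_mem (hTC ht) hwC
    · exfalso
      rw [h] at hs2
      have h1 := invol_conj_aux (data_T_cube D ht) D.w'2 hs2
      apply hnf1 (g⁻¹ * t⁻¹)
      calc g⁻¹ * t⁻¹ * w' * (g⁻¹ * t⁻¹)⁻¹ = g⁻¹ * (t⁻¹ * w' * (t⁻¹)⁻¹) * g := by group
        _ = g⁻¹ * (g * w * g⁻¹) * g := by rw [← h1, ← h]
        _ = w := by group
    · exfalso
      rw [h] at hs2
      have h1 := invol_conj_aux (data_T_cube D ht) hww hs2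
      apply hnf2 (g⁻¹ * t⁻¹)
      calc g⁻¹ * t⁻¹ * (w * w') * (g⁻¹ * t⁻¹)⁻¹ = g⁻¹ * (t⁻¹ * (w * w') * (t⁻¹)⁻¹) * g := by
            group
        _ = g⁻¹ * (g * w * g⁻¹) * g := by rw [← h1, ← h]
        _ = w := by group
  obtain ⟨L, hLn, hwL, hL⟩ := hK C H ν hCH hcard hnorm hinv hTI' hν3 ⟨⟨a, ha⟩, hνa⟩ w D.w2 hconj
  exact ⟨L, hLn, hwL, hL ⟨a, ha⟩ hνa⟩

end Cfsg.Agent.Lib.Helper48.S3701
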