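import Cfsg.Agent.Lib.Helper70.S3701.Defs
import Cfsg.Agent.Lib.Helper48.LLemma

/-!
# S3701, package SYL3 (helper48)

`T` is a Sylow 3-subgroup of `G`: every 3-subgroup of `G` is conjugate into `T`.
-/

set_option autoImplicit false

namespace Cfsg.Agent.Lib.Helper48.S3701

open Cfsg.Agent.Lib.Helper70.S3701
open scoped Pointwise

universe u

theorem pkgSyl3 : PkgSyl3.{u} := by
  intro G _ _ H T a b c w w' D R hR
  haveI : Fact (Nat.Prime 3) := ⟨Nat.prime_three⟩
  have hTp : IsPGroup 3 T := IsPGroup.of_card (n := 3) (by rw [D.cardT]; norm_num)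
  obtain ⟨P, hTP⟩ := hTp.exists_le_sylow
  -- `T = P`
  have hTeq : T = (P : Subgroup G) := by
    apply Cfsg.Agent.Lib.Helper48.LLemma.eq_of_normalizer_growth P.2 hTP
    intro x hxP hxN
    rw [D.hN] at hxN
    -- `K = P ⊓ H` is a 3-subgroup of `H` containing `T`, so it equals `T`
    have hKp : IsPGroup 3 ((P : Subgroup G) ⊓ H : Subgroup G) := P.2.to_le inf_le_left
    obtain ⟨n, hn⟩ := IsPGroup.iff_card.mp hKp
    have hdvd : Nat.card ((P : Subgroup G) ⊓ H : Subgroup G) ∣ 108 := by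
      rw [← D.cardH]
      exact Subgroup.card_dvd_of_le inf_le_right
    have hle : Nat.card ((P : Subgroup G) ⊓ H : Subgroup G) ≤ 27 := by
      rw [hn] at hdvd ⊢
      have hn3 : n ≤ 3 := by
        by_contra hcon
        push_neg at hcon
        have h81 : 3 ^ 4 ∣ 108 := dvd_trans (pow_dvd_pow 3 hcon) hdvd
        norm_num at h81
      calc 3 ^ n ≤ 3 ^ 3 := Nat.pow_le_pow_right (by norm_num) hn3
        _ = 27 := by norm_num
    have hTK : T ≤ (P : Subgroup G) ⊓ H := le_inf hTP D.hTH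
    have hKT : (P : Subgroup G) ⊓ H = T := by
      symm
      apply Subgroup.eq_of_le_of_card_ge hTK
      rw [D.cardT]
      exact hle
    rw [← hKT]
    exact ⟨hxP, hxN⟩
  obtain ⟨Q, hQ⟩ := hR.exists_le_sylow
  obtain ⟨g, hg⟩ := MulAction.exists_smul_eq G Q P
  refine ⟨g, fun r hr => ?_⟩
  have h1 : MulAut.conj g • r ∈ MulAut.conj g • (Q : Subgroup G) :=
    Subgroup.smul_mem_pointwise_smul _ _ _ (hQ hr)
  rw [← Sylow.coe_subgroup_smul, hg, ← hTeq] at h1
  exact h1

end Cfsg.Agent.Lib.Helper48.S3701
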